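import Cfsg.Agent.Mdx.Zip2

set_option autoImplicit false

universe u

namespace Cfsg.Agent.H87.Eng

/-- the map c ↦ c · (t c t⁻¹)⁻¹ -/
def phi {G : Type*} [Group G] (t c : G) : G := c * (t * c * t⁻¹)⁻¹

theorem exists_iterate_mem_periodicPts {X : Type*} [Finite X] (f : X → X) (x : X) :
    ∃ n, f^[n] x ∈ Function.periodicPts f := by
  obtain ⟨m, n, hmn, h⟩ := Finite.exists_ne_map_eq_of_infinite (fun n : ℕ => f^[n] x)
  wlog hlt : m < n generalizing m n
  · exact this n m hmn.symm h.symm (lt_of_le_of_ne (not_lt.mp hlt) hmn.symm)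
  refine ⟨m, Function.mk_mem_periodicPts (Nat.sub_pos_of_lt hlt) ?_⟩
  show f^[n - m] (f^[m] x) = f^[m] x
  rw [← Function.iterate_add_apply, Nat.sub_add_cancel hlt.le]
  exact h.symm

theorem coatom_step {G : Type*} [Group G] {M : Subgroup G} (hM : IsCoatom M) (hn : ¬ M.Normal) {t h : G}
    (huniq : ∀ M' : Subgroup G, IsCoatom M' → t ∈ M' → M' = M) (ht : t ∈ M)
    (hh : phi t h ∈ M) : h ∈ M := by
  have h1 : h * t * h⁻¹ ∈ M := by
    have : h * t * h⁻¹ = phi t h * t := by
      simp only [phi]; group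
    rw [this]; exact M.mul_mem hh ht
  have h2 : M.map (MulAut.conj h⁻¹).toMonoidHom = M := by
    apply huniq
    · exact (OrderIso.isCoatom_iff ((MulAut.conj h⁻¹ : G ≃* G).mapSubgroup) M).mpr hM
    · refine ⟨h * t * h⁻¹, h1, ?_⟩
      show h⁻¹ * (h * t * h⁻¹) * h⁻¹⁻¹ = t
      group
  have h3 : h⁻¹ ∈ Subgroup.normalizer (M : Set G) := by
    rw [Subgroup.mem_normalizer_iff]
    intro x
    constructor
    · intro hx
      rw [← h2]
      exact ⟨x, hx, by simp [MulAut.conj_apply]⟩
    · intro hx
      rw [← h2] at hx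
      obtain ⟨y, hy, hyx⟩ := hx
      have : y = x := by
        simpa using hyx
      exact this ▸ hy
  have h4 : Subgroup.normalizer (M : Set G) = M := by
    rcases eq_or_lt_of_le (Subgroup.le_normalizer (H := M)) with h | h
    · exact h.symm
    · exact absurd (Subgroup.normalizer_eq_top_iff.mp (hM.2 _ h)) hn
  rw [h4] at h3
  simpa using M.inv_mem h3

theorem gen : ∀ (n : ℕ) (G : Type u) [Group G] [Finite G] (t : G), Nat.card G = n →
    Subgroup.normalClosure {t} = ⊤ →
    Subgroup.closure ({t} ∪ Function.periodicPts (phi t)) = ⊤ := by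
  intro n
  induction n using Nat.strong_induction_on with
  | _ n ih =>
  intro G _ _ t hcard hN
  set A : Subgroup G := Subgroup.zpowers t with hAdef
  have hAle : A ≤ Subgroup.closure ({t} ∪ Function.periodicPts (phi t)) := by
    rw [hAdef, Subgroup.zpowers_le]
    exact Subgroup.subset_closure (Or.inl (Set.mem_singleton _))
  by_cases hA : A = ⊤
  · rw [hA] at hAle; exact top_le_iff.mp hAle
  have hNA : Subgroup.normalClosure (A : Set G) = ⊤ := by
    rw [eq_top_iff, ← hN]
    apply Subgroup.normalClosure_mono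
    intro x hx
    rw [Set.mem_singleton_iff] at hx
    subst hx
    exact Subgroup.mem_zpowers x
  rcases Cfsg.Agent.Mdx.ZL.main A hNA hA with h | ⟨M, ⟨hM, hAM⟩, huniq⟩
  · rw [eq_top_iff, ← h]
    apply sSup_le
    rintro H ⟨hAH, hH, hHn⟩
    have htH : t ∈ H := hAH (Subgroup.mem_zpowers t)
    have hcl : Subgroup.normalClosure {(⟨t, htH⟩ : ↥H)} = ⊤ := by
      rw [eq_top_iff, ← hHn]
      apply Subgroup.normalClosure_le_normal
      intro x hx
      have hx' : (x : G) ∈ Subgroup.zpowers t := hx
      obtain ⟨k, hk⟩ := Subgroup.mem_zpowers_iff.mp hx'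
      have : x = (⟨t, htH⟩ : ↥H) ^ k := by
        apply Subtype.ext; simpa using hk.symm
      rw [this]
      exact Subgroup.zpow_mem _ (Subgroup.subset_normalClosure (Set.mem_singleton _)) k
    have hlt : Nat.card ↥H < n := by
      rw [← hcard]
      exact lt_of_le_of_ne (Subgroup.card_le_card_group H) (fun he => hH (Subgroup.eq_top_of_card_eq H he))
    have := ih _ hlt ↥H ⟨t, htH⟩ rfl hcl
    have h5 : (Subgroup.closure ({(⟨t, htH⟩ : ↥H)} ∪ Function.periodicPts (phi (⟨t, htH⟩ : ↥H)))) ≤
        (Subgroup.closure ({t} ∪ Function.periodicPts (phi t))).comap H.subtype := ?_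
    · intro x hx
      have hx2 : (⟨x, hx⟩ : ↥H) ∈ (⊤ : Subgroup ↥H) := Subgroup.mem_top _
      rw [← this] at hx2
      exact h5 hx2
    rw [Subgroup.closure_le]
    intro y hy
    show (y : G) ∈ Subgroup.closure ({t} ∪ Function.periodicPts (phi t))
    apply Subgroup.subset_closure
    rcases hy with hy | hy
    · left
      rw [Set.mem_singleton_iff] at hy
      rw [hy]; rfl
    · right
      have hsc : Function.Semiconj H.subtype (phi (⟨t, htH⟩ : ↥H)) (phi t) := by
        intro c; rfl
      exact hsc.mapsTo_periodicPts hy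
  · by_contra hne
    rcases IsCoatomic.eq_top_or_exists_le_coatom (Subgroup.closure ({t} ∪ Function.periodicPts (phi t))) with h | ⟨M', hM', hle⟩
    · exact hne h
    have hMM : M' = M := huniq M' ⟨hM', hAle.trans hle⟩
    subst hMM
    have hnn : ¬ M'.Normal := by
      intro hnorm
      apply hM'.1
      rw [eq_top_iff, ← hN]
      apply Subgroup.normalClosure_le_normal
      intro x hx
      rw [Set.mem_singleton_iff] at hx
      subst hx
      exact hAM (Subgroup.mem_zpowers x)
    have hu : ∀ M'' : Subgroup G, IsCoatom M'' → t ∈ M'' → M'' = M' := by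
      intro M'' h1 h2
      exact huniq M'' ⟨h1, by rw [hAdef, Subgroup.zpowers_le]; exact h2⟩
    apply hM'.1
    rw [eq_top_iff]
    intro g _
    obtain ⟨k, hk⟩ := exists_iterate_mem_periodicPts (phi t) g
    have hk' : (phi t)^[k] g ∈ M' := hle (Subgroup.subset_closure (Or.inr hk))
    clear hk
    induction k with
    | zero => simpa using hk'
    | succ k ihk =>
      apply ihk
      rw [Function.iterate_succ_apply'] at hk'
      exact coatom_step hM' hnn hu (hAM (Subgroup.mem_zpowers t)) hk'

/-- periodic points for an involution: inverted by it and of odd order -/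
theorem periodic_involution {G : Type*} [Group G] {t c : G} (ht : t * t = 1)
    (hc : c ∈ Function.periodicPts (phi t)) : t * c * t⁻¹ = c⁻¹ ∧ Odd (orderOf c) := by
  have hti : t⁻¹ = t := inv_eq_of_mul_eq_one_left ht
  obtain ⟨n, hn, hp⟩ := hc
  have key : ∀ x : G, t * phi t x * t⁻¹ = (phi t x)⁻¹ := by
    intro x
    simp only [phi, mul_inv_rev, inv_inv, hti, mul_assoc, ht, mul_one]
  have hinv : t * c * t⁻¹ = c⁻¹ := by
    obtain ⟨m, rfl⟩ := Nat.exists_eq_succ_of_ne_zero hn.ne'
    have : c = phi t ((phi t)^[m] c) :=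
      (hp.symm : c = (phi t)^[m.succ] c).trans (Function.iterate_succ_apply' (phi t) m c)
    rw [this]; exact key _
  refine ⟨hinv, ?_⟩
  have hpow : ∀ m : ℕ, (phi t)^[m] c = c ^ (2 ^ m) := by
    intro m
    induction m with
    | zero => simp
    | succ m ih =>
      rw [Function.iterate_succ_apply', ih]
      have h2 : t * c ^ (2 ^ m) * t⁻¹ = (c ^ (2 ^ m))⁻¹ := by
        rw [← conj_pow, hinv, inv_pow]
      simp only [phi]
      rw [h2, inv_inv, ← pow_add, pow_succ]
      congr 1; ring
  have h3 : c ^ (2 ^ n) = c := by rw [← hpow n]; exact hp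
  have h4 : c ^ (2 ^ n - 1) = 1 := by
    have h5 : 2 ^ n = (2 ^ n - 1) + 1 := (Nat.sub_add_cancel (Nat.one_le_two_pow)).symm
    rw [h5, pow_succ] at h3
    exact mul_eq_right.mp h3
  have h6 : orderOf c ∣ 2 ^ n - 1 := orderOf_dvd_of_pow_eq_one h4
  have h7 : Odd (2 ^ n - 1) := by
    refine Nat.Even.sub_odd Nat.one_le_two_pow ?_ odd_one
    exact (Nat.even_pow.mpr ⟨even_two, hn.ne'⟩)
  exact Odd.of_dvd_nat h7 h6

/-- If the normal closure of the involution `t` is everything then `G` is generated by `t` and the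
elements of odd order inverted by `t`. -/
theorem gen_involution {G : Type*} [Group G] [Finite G] (t : G) (ht : t * t = 1)
    (hN : Subgroup.normalClosure {t} = ⊤) :
    Subgroup.closure ({t} ∪ {c | t * c * t⁻¹ = c⁻¹ ∧ Odd (orderOf c)}) = ⊤ := by
  rw [eq_top_iff, ← gen _ G t rfl hN]
  apply Subgroup.closure_mono
  apply Set.union_subset_union_right
  intro c hc
  exact periodic_involution ht hc

end Cfsg.Agent.H87.Eng
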