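import Cfsg.Agent.H31.PP.Basics

/-!
# S3019, part II: the weak closure of `z` is not cyclic
-/

set_option autoImplicit false
set_option linter.all false

namespace Cfsg.Agent.H87.FlavII

open Subgroup Cfsg Cfsg.Agent.H31.PP

universe u

/-- The key commutator computation. -/
theorem lemA {Y : Type*} [Group Y] [Finite Y] {p : ℕ} [Fact p.Prime] (Q F : Subgroup Y) [Q.Normal]
    (hQ : IsPGroup p Q) (z : Y) (hF : ∀ f ∈ F, z * f * z⁻¹ ∈ F) (hFc : ∀ f ∈ F, (orderOf f).Coprime p)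
    (h : ∀ x ∈ Q, ∀ f ∈ F, f * (x⁻¹ * z * x * z⁻¹) = (x⁻¹ * z * x * z⁻¹) * f) :
    ∀ f ∈ F, ∀ y ∈ Q, (z * f * z⁻¹ * f⁻¹) * y = y * (z * f * z⁻¹ * f⁻¹) := by
  intro f hf y hy
  have hf' : z * f * z⁻¹ ∈ F := hF f hf
  set g := z * f * z⁻¹ * f⁻¹ with hg
  have hgF : g ∈ F := F.mul_mem hf' (F.inv_mem hf)
  -- for all y ∈ Q there is d ∈ Q fixed by F with g y g⁻¹ = y d
  have key : ∀ y ∈ Q, ∃ d ∈ Q, (∀ f ∈ F, f * d = d * f) ∧ g * y * g⁻¹ = y * d := by
    intro y hy
    have hx : f⁻¹ * y * f ∈ Q := by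
      simpa using (inferInstance : Q.Normal).conj_mem y hy f⁻¹
    set x := f⁻¹ * y * f with hxdef
    have hyx : y = f * x * f⁻¹ := by rw [hxdef]; group
    -- c x = x⁻¹ z x z⁻¹ ; z x z⁻¹ = x c x 
    have hc1 := h x hx
    have hc2 := h y hy
    have hQ1 : ∀ w ∈ Q, w⁻¹ * z * w * z⁻¹ ∈ Q := by
      intro w hw
      have := Q.mul_mem (Q.inv_mem hw) ((inferInstance : Q.Normal).conj_mem w hw z)
      simpa [mul_assoc] using this
    set c := x⁻¹ * z * x * z⁻¹ with hcdef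
    set c' := y⁻¹ * z * y * z⁻¹ with hc'def
    refine ⟨c' * c⁻¹, Q.mul_mem (hQ1 y hy) (Q.inv_mem (hQ1 x hx)), ?_, ?_⟩
    · intro f1 hf1
      have e1 := hc1 f1 hf1
      have e2 := hc2 f1 hf1
      have e3 : f1 * c⁻¹ = c⁻¹ * f1 := by
        have : Commute f1 c := e1
        exact this.inv_right
      rw [← mul_assoc, e2, mul_assoc, e3, ← mul_assoc]
    · -- g y g⁻¹ = f' x f'⁻¹, z y z⁻¹ = y c' ; z y z⁻¹ = f' (z x z⁻¹) f'⁻¹ = f' x c f'⁻¹ = f' x f'⁻¹ c
      have e1 : z * y * z⁻¹ = y * c' := by rw [hc'def]; group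
      have e2 : z * y * z⁻¹ = (z * f * z⁻¹) * (x * c) * (z * f * z⁻¹)⁻¹ := by
        rw [hcdef, hyx]; group
      have e3 : c * (z * f * z⁻¹)⁻¹ = (z * f * z⁻¹)⁻¹ * c := by
        have : Commute (z * f * z⁻¹) c := hc1 _ hf'
        exact (this.symm.inv_right)
      have e4 : z * y * z⁻¹ = (g * y * g⁻¹) * c := by
        rw [e2, mul_assoc, mul_assoc x c, e3, hg, hyx]
        group
      rw [← mul_assoc, ← e1, e4, mul_inv_cancel_right]
  obtain ⟨d, hdQ, hdF, hd⟩ := key y hy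
  have hgd : Commute g d := hdF g hgF
  have hpow : ∀ n : ℕ, g ^ n * y * (g ^ n)⁻¹ = y * d ^ n := by
    intro n
    induction n with
    | zero => simp
    | succ n ih =>
      have e : g * d ^ n * g⁻¹ = d ^ n := by
        have : Commute g (d ^ n) := hgd.pow_right n
        rw [this.eq, mul_inv_cancel_right]
      calc g ^ (n + 1) * y * (g ^ (n + 1))⁻¹ = g * (g ^ n * y * (g ^ n)⁻¹) * g⁻¹ := by
            rw [pow_succ']; group
        _ = (g * y * g⁻¹) * (g * d ^ n * g⁻¹) := by rw [ih]; group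
        _ = y * d ^ (n + 1) := by rw [hd, e, pow_succ']; group
  have h1 := hpow (orderOf g)
  rw [pow_orderOf_eq_one, one_mul, inv_one, mul_one] at h1
  have h2 : d ^ orderOf g = 1 := by
    have : y * 1 = y * d ^ orderOf g := by rw [mul_one]; exact h1
    exact (mul_left_cancel this).symm
  obtain ⟨k, hk⟩ := hQ ⟨d, hdQ⟩
  have hk' : d ^ p ^ k = 1 := by simpa using congrArg Subtype.val hk
  have h3 : orderOf d ∣ orderOf g := orderOf_dvd_of_pow_eq_one h2
  have h4 : orderOf d ∣ p ^ k := orderOf_dvd_of_pow_eq_one hk'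
  have h5 : orderOf d = 1 :=
    Nat.eq_one_of_dvd_coprimes (Nat.Coprime.pow_right k (hFc g hgF)) h3 h4
  have h6 : d = 1 := orderOf_eq_one_iff.mp h5
  rw [h6, mul_one] at hd
  calc g * y = (g * y * g⁻¹) * g := by group
    _ = y * g := by rw [hd]



variable {G : Type u} [Group G] [Finite G] {p : ℕ} [Fact p.Prime]

theorem coprime_orderOf {K : Subgroup G} (hK : (Nat.card K).Coprime p) {x : G} (hx : x ∈ K) :
    (orderOf x).Coprime p := by
  have h1 : orderOf x ∣ Nat.card K := by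
    have := orderOf_dvd_natCard (⟨x, hx⟩ : K)
    rwa [Subgroup.orderOf_mk] at this
  exact Nat.Coprime.coprime_dvd_left h1 hK

theorem coprime_of_le {K L : Subgroup G} (hL : (Nat.card L).Coprime p) (h : K ≤ L) :
    (Nat.card K).Coprime p :=
  Nat.Coprime.coprime_dvd_left (Subgroup.card_dvd_of_le h) hL

/-- Lemma L: an `E`-invariant `p'`-subgroup `F` of the `p`-solvable `V` lies in `O_{p'}(V)`, if `E` is
normalized by a Sylow subgroup of `V` containing it and `C_F(z) ≤ O_{p'}(V)` for an element `z` of `E`. -/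
theorem lemL {V S E F : Subgroup G} (hV : IsPSolvable p V) (hS : Syl p S V) (hES : E ≤ S)
    (hn : ∀ s ∈ S, ∀ e ∈ E, s * e * s⁻¹ ∈ E) (hFV : F ≤ V) (hFc : (Nat.card F).Coprime p)
    (hEF : ∀ e ∈ E, ∀ f ∈ F, e * f * e⁻¹ ∈ F) {z : G} (hz : z ∈ E)
    (hC : ∀ f ∈ F, f * z = z * f → f ∈ OO p V) : F ≤ OO p V := by
  have hzV : z ∈ V := hS.le (hES hz)
  have hzp : ∃ k : ℕ, z ^ p ^ k = 1 := by
    obtain ⟨k, hk⟩ := hS.pg ⟨z, hES hz⟩
    exact ⟨k, by simpa using congrArg Subtype.val hk⟩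
  -- F centralizes E ∩ OP mod OO
  have h1 : ∀ e ∈ E, e ∈ OP p V → ∀ f ∈ F, f * e * f⁻¹ * e⁻¹ ∈ OO p V := by
    intro e he heO f hf
    have hm : f * e * f⁻¹ * e⁻¹ ∈ F := by
      have := F.mul_mem hf (hEF e he _ (F.inv_mem hf))
      simpa [mul_assoc] using this
    have hm2 : f * e * f⁻¹ * e⁻¹ ∈ OP p V :=
      (OP p V).mul_mem (OP_conj (hFV hf) heO) ((OP p V).inv_mem heO)
    exact mem_OO_of_mem_OP hm2 (coprime_orderOf hFc hm)
  -- pass to the quotient
  let N : Subgroup V := pPrimeCore p V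
  have memN : ∀ v : V, v ∈ N ↔ (v : G) ∈ OO p V := by
    intro v
    constructor
    · intro h; exact Subgroup.mem_map.mpr ⟨v, h, rfl⟩
    · intro h
      obtain ⟨w, hw, hwv⟩ := Subgroup.mem_map.mp h
      have : w = v := Subtype.ext hwv
      exact this ▸ hw
  have memP : ∀ v : V, (QuotientGroup.mk' N v) ∈ pCore p (V ⧸ N) ↔ (v : G) ∈ OP p V := by
    intro v
    constructor
    · intro h; exact Subgroup.mem_map.mpr ⟨v, h, rfl⟩
    · intro h
      obtain ⟨w, hw, hwv⟩ := Subgroup.mem_map.mp h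
      have : w = v := Subtype.ext hwv
      exact this ▸ hw
  have mkeq : ∀ v w : V, QuotientGroup.mk' N v = QuotientGroup.mk' N w ↔ (v : G) * (w : G)⁻¹ ∈ OO p V := by
    intro v w
    have : QuotientGroup.mk' N v = QuotientGroup.mk' N w ↔ v * w⁻¹ ∈ N := by
      rw [← QuotientGroup.eq_one_iff]
      simp only [QuotientGroup.mk'_apply, QuotientGroup.mk_mul, QuotientGroup.mk_inv]
      rw [mul_inv_eq_one]
    rw [this, memN]
    rfl
  let F' : Subgroup (V ⧸ N) := (F.subgroupOf V).map (QuotientGroup.mk' N)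
  have hA := lemA (p := p) (pCore p (V ⧸ N)) F' (Solv.pCore_isPGroup p)
    (QuotientGroup.mk' N ⟨z, hzV⟩) ?_ ?_ ?_
  · -- conclude
    intro f hf
    set g := z * f * z⁻¹ * f⁻¹ with hg
    have hzf : z * f * z⁻¹ ∈ F := hEF z hz f hf
    have hgF : g ∈ F := F.mul_mem hzf (F.inv_mem hf)
    have hgO : g ∈ OP p V := by
      refine mem_OP_of_comm hV hS (hFV hgF) ?_
      intro s hs hsO
      have hsV : s ∈ V := hS.le hs
      have h := hA (QuotientGroup.mk' N ⟨f, hFV hf⟩)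
        (Subgroup.mem_map.mpr ⟨⟨f, hFV hf⟩, Subgroup.mem_subgroupOf.mpr hf, rfl⟩)
        (QuotientGroup.mk' N ⟨s, hsV⟩) ((memP ⟨s, hsV⟩).mpr hsO)
      rw [← map_inv, ← map_inv, ← map_mul, ← map_mul, ← map_mul, ← map_mul, ← map_mul, mkeq] at h
      simpa [hg, mul_assoc] using h
    have hgN : g ∈ OO p V := mem_OO_of_mem_OP hgO (coprime_orderOf hFc hgF)
    have hfix := exists_fix (N := F ⊓ OO p V) (coprime_of_le hFc inf_le_left) (z := z) (x := f) hzp
      (fun n hn => ⟨hEF z hz n hn.1, OO_conj hzV hn.2⟩) (by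
        have : f * z * f⁻¹ * z⁻¹ = (z * f * z⁻¹ * f⁻¹)⁻¹ := by group
        rw [this]
        exact (F ⊓ OO p V).inv_mem ⟨hgF, hgN⟩)
    obtain ⟨n, hn1, hn2⟩ := hfix
    have h3 := hC (n * f) (F.mul_mem hn1.1 hf) hn2
    have : f = n⁻¹ * (n * f) := by group
    rw [this]
    exact (OO p V).mul_mem ((OO p V).inv_mem hn1.2) h3
  · rintro _ ⟨f, hf, rfl⟩
    have hf' := Subgroup.mem_subgroupOf.mp hf
    refine Subgroup.mem_map.mpr ⟨⟨z, hzV⟩ * f * ⟨z, hzV⟩⁻¹, ?_, ?_⟩
    · exact Subgroup.mem_subgroupOf.mpr (hEF z hz _ hf')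
    · simp only [map_mul, map_inv]
  · rintro _ ⟨f, hf, rfl⟩
    have hf' := Subgroup.mem_subgroupOf.mp hf
    have h2 : orderOf (QuotientGroup.mk' N f) ∣ orderOf f := orderOf_map_dvd _ _
    have h3 : orderOf (f : G) = orderOf f := Subgroup.orderOf_coe f
    exact Nat.Coprime.coprime_dvd_left (h3 ▸ h2) (coprime_orderOf hFc hf')
  · intro x hx f' hf'
    obtain ⟨f, hf, rfl⟩ := Subgroup.mem_map.mp hf'
    have hfF := Subgroup.mem_subgroupOf.mp hf
    obtain ⟨v, rfl⟩ := QuotientGroup.mk'_surjective N x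
    have hvO := (memP v).mp hx
    obtain ⟨k, hk, q, hqS, hqO, hvk⟩ := exists_factor hS hvO
    have hkV := OO_le V hk
    have hqV := hS.le hqS
    -- replace v by q
    have hvq : QuotientGroup.mk' N v = QuotientGroup.mk' N ⟨q, hqV⟩ := by
      rw [mkeq]
      have : (v : G) * q⁻¹ = k := by rw [hvk]; group
      show (v : G) * q⁻¹ ∈ OO p V
      rw [this]; exact hk
    rw [hvq]
    -- e = q⁻¹ z q z⁻¹ ∈ E ∩ OP
    have he1 : q⁻¹ * z * q * z⁻¹ ∈ E := by
      have := hn q⁻¹ (S.inv_mem hqS) z hz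
      rw [inv_inv] at this
      exact E.mul_mem this (E.inv_mem hz)
    have he2 : q⁻¹ * z * q * z⁻¹ ∈ OP p V := by
      have := (OP p V).mul_mem ((OP p V).inv_mem hqO) (OP_conj hzV hqO)
      simpa [mul_assoc] using this
    have h4 := h1 _ he1 he2 f hfF
    rw [← map_inv, ← map_inv, ← map_mul, ← map_mul, ← map_mul, ← map_mul, ← map_mul, mkeq]
    simpa [mul_assoc] using h4



open scoped Pointwise

theorem centralizer_ne_top (hM : MinS p G) {a : G} (ha : a ≠ 1) :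
    centralizer ({a} : Set G) ≠ ⊤ := by
  intro h
  have := hM.simp
  have hac : a ∈ center G := by
    rw [Subgroup.mem_center_iff]
    intro g
    have : g ∈ centralizer ({a} : Set G) := h ▸ Subgroup.mem_top g
    exact (Subgroup.mem_centralizer_singleton_iff.mp this)
  have hc : center G = ⊤ := by
    rcases (inferInstance : (center G).Normal).eq_bot_or_eq_top with h1 | h1
    · rw [h1, Subgroup.mem_bot] at hac
      exact absurd hac ha
    · exact h1
  let _ : CommGroup G := Group.commGroupOfCenterEqTop hc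
  have hpr : (Nat.card G).Prime := IsSimpleGroup.prime_card
  refine hM.nps ⟨1, ![⊥, ⊤], rfl, rfl, ?_, ?_, ?_⟩
  · intro i j hij
    fin_cases i <;> fin_cases j <;> simp_all
  · intro i
    fin_cases i
    · exact (inferInstance : (⊥ : Subgroup G).Normal)
    · exact (inferInstance : (⊤ : Subgroup G).Normal)
  · intro i
    fin_cases i
    show (∃ m : ℕ, (⊥ : Subgroup G).relIndex ⊤ = p ^ m) ∨ ((⊥ : Subgroup G).relIndex ⊤).Coprime p
    rw [Subgroup.relIndex_bot_left, Subgroup.card_top]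
    by_cases hp : (Nat.card G).Coprime p
    · exact Or.inr hp
    · have : Nat.card G = p := by
        rcases (Nat.coprime_primes hpr (Fact.out : p.Prime)).not.mp hp with h
        exact not_not.mp h
      exact Or.inl ⟨1, by rw [this, pow_one]⟩

theorem mem_smul_sylow (P : Sylow p G) (g x : G) :
    x ∈ ((g • P : Sylow p G) : Subgroup G) ↔ g⁻¹ * x * g ∈ (P : Subgroup G) := by
  rw [Sylow.coe_subgroup_smul, Subgroup.mem_pointwise_smul_iff_inv_smul_mem]
  simp [MulAut.smul_def, ← map_inv]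

theorem central_smul {P : Sylow p G} {z : G} (hz : z ∈ (P : Subgroup G))
    (hzc : ∀ x ∈ (P : Subgroup G), x * z = z * x) (g : G) :
    g * z * g⁻¹ ∈ ((g • P : Sylow p G) : Subgroup G) ∧
      ∀ x ∈ ((g • P : Sylow p G) : Subgroup G), x * (g * z * g⁻¹) = (g * z * g⁻¹) * x := by
  constructor
  · rw [mem_smul_sylow]
    have : g⁻¹ * (g * z * g⁻¹) * g = z := by group
    rw [this]; exact hz
  · intro x hx
    rw [mem_smul_sylow] at hx
    have h := hzc _ hx
    calc x * (g * z * g⁻¹) = g * ((g⁻¹ * x * g) * z) * g⁻¹ := by group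
      _ = g * (z * (g⁻¹ * x * g)) * g⁻¹ := by rw [h]
      _ = (g * z * g⁻¹) * x := by group

/-- Two central elements of Sylow subgroups. -/
theorem two_central (hM : MinS p G) (P Q : Sylow p G) {x y : G} (hx : x ∈ (P : Subgroup G))
    (hxc : ∀ s ∈ (P : Subgroup G), s * x = x * s) (hy : y ∈ (Q : Subgroup G))
    (hyc : ∀ s ∈ (Q : Subgroup G), s * y = y * s) :
    x * y * x⁻¹ * y⁻¹ ∈ OO p ((P : Subgroup G) ⊔ Q) := by
  have hV := hM.sub _ (hM.pair P Q)
  have hy' : y ∈ OP p ((P : Subgroup G) ⊔ Q) := by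
    refine mem_OP_of_comm hV (Syl.of_sylow Q le_sup_right) (mem_sup_right hy) ?_
    intro s hs _
    rw [← hyc s hs, mul_inv_cancel_right, mul_inv_cancel]
    exact one_mem _
  exact comm_mem_OO (Syl.of_sylow P le_sup_left) (mem_sup_left hx) (fun s hs => (hxc s hs).symm) hy'

/-- An element in a `p`-subgroup and in a `p'`-subgroup is trivial. -/
theorem eq_one_of_both {T K : Subgroup G} (hT : IsPGroup p T) (hK : (Nat.card K).Coprime p) {x : G}
    (hx : x ∈ T) (hx' : x ∈ K) : x = 1 := by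
  obtain ⟨k, hk⟩ := hT ⟨x, hx⟩
  have hk' : x ^ p ^ k = 1 := by simpa using congrArg Subtype.val hk
  have h4 : orderOf x ∣ p ^ k := orderOf_dvd_of_pow_eq_one hk'
  exact orderOf_eq_one_iff.mp
    (Nat.eq_one_of_dvd_coprimes (Nat.Coprime.pow_right k (coprime_orderOf hK hx')) dvd_rfl h4)

theorem conj_comm (hM : MinS p G) {P : Sylow p G} {z : G} (hz : z ∈ (P : Subgroup G))
    (hzc : ∀ x ∈ (P : Subgroup G), x * z = z * x) {T : Subgroup G} (hT : IsPGroup p T) {g h : G}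
    (hg : g * z * g⁻¹ ∈ T) (hh : h * z * h⁻¹ ∈ T) :
    (g * z * g⁻¹) * (h * z * h⁻¹) = (h * z * h⁻¹) * (g * z * g⁻¹) := by
  have h1 := central_smul hz hzc g
  have h2 := central_smul hz hzc h
  have h3 := two_central hM (g • P) (h • P) h1.1 h1.2 h2.1 h2.2
  have h4 := eq_one_of_both hT (OO_coprime _) (x := (g * z * g⁻¹) * (h * z * h⁻¹) * (g * z * g⁻¹)⁻¹ *
    (h * z * h⁻¹)⁻¹) (T.mul_mem (T.mul_mem (T.mul_mem hg hh) (T.inv_mem hg)) (T.inv_mem hh)) h3
  rw [mul_inv_eq_one, mul_inv_eq_iff_eq_mul] at h4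
  exact h4

/-- The weak closure. -/
def EE (z : G) (P : Subgroup G) : Subgroup G := closure {x | (∃ g : G, x = g * z * g⁻¹) ∧ x ∈ P}

omit [Finite G] in
theorem EE_le (z : G) (P : Subgroup G) : EE z P ≤ P := by
  rw [EE, closure_le]
  exact fun x hx => hx.2

omit [Finite G] in
theorem mem_EE {z : G} {P : Subgroup G} {g : G} (h : g * z * g⁻¹ ∈ P) : g * z * g⁻¹ ∈ EE z P :=
  subset_closure ⟨⟨g, rfl⟩, h⟩

omit [Finite G] in
theorem self_mem_EE {z : G} {P : Subgroup G} (h : z ∈ P) : z ∈ EE z P :=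
  subset_closure ⟨⟨1, by simp⟩, h⟩

omit [Finite G] in
theorem EE_conj (z g : G) (P : Subgroup G) : EE (g * z * g⁻¹) P = EE z P := by
  unfold EE
  congr 1
  ext x
  constructor
  · rintro ⟨⟨h, rfl⟩, hx⟩
    exact ⟨⟨h * g, by group⟩, hx⟩
  · rintro ⟨⟨h, rfl⟩, hx⟩
    exact ⟨⟨h * g⁻¹, by group⟩, hx⟩

omit [Finite G] in
theorem EE_normal {z : G} {P : Subgroup G} : ∀ s ∈ P, ∀ e ∈ EE z P, s * e * s⁻¹ ∈ EE z P := by
  intro s hs e he
  have : (EE z P).map (MulAut.conj s).toMonoidHom ≤ EE z P := by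
    rw [EE, MonoidHom.map_closure, closure_le]
    rintro _ ⟨x, ⟨⟨g, rfl⟩, hx⟩, rfl⟩
    refine subset_closure ⟨⟨s * g, ?_⟩, ?_⟩
    · simp [MulAut.conj_apply, mul_assoc]
    · simpa using P.mul_mem (P.mul_mem hs hx) (P.inv_mem hs)
  exact this (Subgroup.mem_map.mpr ⟨e, he, by simp⟩)

theorem EE_comm (hM : MinS p G) {P : Sylow p G} {z : G} (hz : z ∈ (P : Subgroup G))
    (hzc : ∀ x ∈ (P : Subgroup G), x * z = z * x) {T : Subgroup G} (hT : IsPGroup p T) :
    ∀ a ∈ EE z T, ∀ b ∈ EE z T, a * b = b * a := by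
  intro a ha b hb
  unfold EE at ha hb
  refine Subgroup.closure_induction₂ (p := fun a b _ _ => a * b = b * a) ?_ ?_ ?_ ?_ ?_ ?_ ?_ ha hb
  · rintro x y ⟨⟨g, rfl⟩, hx⟩ ⟨⟨h, rfl⟩, hy⟩
    exact conj_comm hM hz hzc hT hx hy
  · intro x _; simp
  · intro x _; simp
  · intro x y z _ _ _ h1 h2
    exact (Commute.mul_left (h1 : Commute x z) (h2 : Commute y z))
  · intro x y z _ _ _ h1 h2
    exact (Commute.mul_right (h1 : Commute z x) (h2 : Commute z y))
  · intro x y _ _ h1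
    exact (Commute.inv_left (h1 : Commute x y))
  · intro x y _ _ h1
    exact (Commute.inv_right (h1 : Commute x y))

theorem card_EE_smul (z g : G) (P : Sylow p G) :
    Nat.card (EE z ((g • P : Sylow p G) : Subgroup G)) = Nat.card (EE z (P : Subgroup G)) := by
  have : EE z ((g • P : Sylow p G) : Subgroup G) =
      (EE z (P : Subgroup G)).map (MulAut.conj g).toMonoidHom := by
    unfold EE
    rw [MonoidHom.map_closure]
    congr 1
    ext x
    constructor
    · rintro ⟨⟨h, rfl⟩, hx⟩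
      rw [mem_smul_sylow] at hx
      refine ⟨g⁻¹ * (h * z * h⁻¹) * g, ⟨⟨g⁻¹ * h, by group⟩, hx⟩, ?_⟩
      simp [MulAut.conj_apply]; group
    · rintro ⟨y, ⟨⟨h, rfl⟩, hy⟩, rfl⟩
      refine ⟨⟨g * h, by simp [MulAut.conj_apply, mul_assoc]⟩, ?_⟩
      show _ ∈ ((g • P : Sylow p G) : Subgroup G)
      rw [mem_smul_sylow]
      have : g⁻¹ * ((MulAut.conj g).toMonoidHom (h * z * h⁻¹)) * g = h * z * h⁻¹ := by
        simp [MulAut.conj_apply]; group
      rw [this]; exact hy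
  rw [this, Subgroup.card_map_of_injective (MulEquiv.injective _)]

theorem EE_eq {z : G} {P Q : Sylow p G} (h : EE z (P : Subgroup G) ≤ Q) :
    EE z (Q : Subgroup G) = EE z (P : Subgroup G) := by
  have h1 : EE z (P : Subgroup G) ≤ EE z (Q : Subgroup G) := by
    conv_lhs => rw [EE]
    rw [closure_le]
    rintro x ⟨⟨g, rfl⟩, hx⟩
    exact mem_EE (h (mem_EE hx))
  obtain ⟨g, rfl⟩ := MulAction.exists_smul_eq G P Q
  exact (Subgroup.eq_of_le_of_card_ge h1 (card_EE_smul z g P).le).symm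



theorem le_sylow_centralizer {P : Sylow p G} {z : G}
    (hzc : ∀ x ∈ (P : Subgroup G), x * z = z * x) :
    (P : Subgroup G) ≤ centralizer ({z} : Set G) := by
  intro x hx
  exact Subgroup.mem_centralizer_singleton_iff.mpr (hzc x hx)

/-- (++) -/
theorem pp (hM : MinS p G) {P : Sylow p G} {z : G} (hz : z ∈ (P : Subgroup G)) (hz1 : z ≠ 1)
    (hzc : ∀ x ∈ (P : Subgroup G), x * z = z * x) {K : Subgroup G} (hKc : (Nat.card K).Coprime p)
    (hK : ∀ x ∈ (P : Subgroup G), ∀ k ∈ K, x * k * x⁻¹ ∈ K) {a : G} (ha : a ∈ EE z (P : Subgroup G))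
    (ha1 : a ≠ 1) {f : G} (hf : f ∈ K) (hfa : f * a = a * f) : f ∈ th p a := by
  have hC := hM.sub _ (centralizer_ne_top hM ha1)
  have hab := EE_comm hM hz hzc P.isPGroup'
  have hEC : EE z (P : Subgroup G) ≤ centralizer ({a} : Set G) := by
    intro e he
    exact Subgroup.mem_centralizer_singleton_iff.mpr (hab e he a ha)
  obtain ⟨S, hS, hES⟩ := exists_syl (p := p) hEC (P.isPGroup'.to_le (EE_le z _))
  -- S normalizes E
  obtain ⟨Q, hQ⟩ := hS.pg.exists_le_sylow
  have hEQ : EE z (Q : Subgroup G) = EE z (P : Subgroup G) := EE_eq (hES.trans hQ)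
  have hn : ∀ s ∈ S, ∀ e ∈ EE z (P : Subgroup G), s * e * s⁻¹ ∈ EE z (P : Subgroup G) := by
    intro s hs e he
    rw [← hEQ] at he ⊢
    exact EE_normal s (hQ hs) e he
  have hEK : ∀ e ∈ EE z (P : Subgroup G), ∀ f ∈ K ⊓ centralizer ({a} : Set G),
      e * f * e⁻¹ ∈ K ⊓ centralizer ({a} : Set G) := by
    intro e he f hf
    exact ⟨hK e (EE_le z _ he) f hf.1,
      (centralizer ({a} : Set G)).mul_mem ((centralizer ({a} : Set G)).mul_mem (hEC he) hf.2)
        ((centralizer ({a} : Set G)).inv_mem (hEC he))⟩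
  have hL := lemL (z := z) hC hS hES hn (F := K ⊓ centralizer ({a} : Set G)) inf_le_right
    (coprime_of_le hKc inf_le_left) hEK (self_mem_EE hz) (by
      intro f hf hfz
      have hCz := hM.sub _ (centralizer_ne_top hM hz1)
      have h1 : K ⊓ centralizer ({z} : Set G) ≤ OO p (centralizer ({z} : Set G)) := by
        refine le_OO_of_inv hCz (Syl.of_sylow P (le_sylow_centralizer hzc)) inf_le_right
          (coprime_of_le hKc inf_le_left) ?_
        intro s hs x hx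
        exact ⟨hK s hs x hx.1, (centralizer ({z} : Set G)).mul_mem
          ((centralizer ({z} : Set G)).mul_mem (le_sylow_centralizer hzc hs) hx.2)
          ((centralizer ({z} : Set G)).inv_mem (le_sylow_centralizer hzc hs))⟩
      have h2 : f ∈ th p z := h1 ⟨hf.1, Subgroup.mem_centralizer_singleton_iff.mpr hfz⟩
      have hzp : ∃ k : ℕ, z ^ p ^ k = 1 := by
        obtain ⟨k, hk⟩ := P.isPGroup' ⟨z, hz⟩
        exact ⟨k, by simpa using congrArg Subtype.val hk⟩
      exact balance hC (hab z (self_mem_EE hz) a ha) hzp h2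
        (Subgroup.mem_centralizer_singleton_iff.mp hf.2))
  exact hL ⟨hf, Subgroup.mem_centralizer_singleton_iff.mpr hfa⟩

/-- For a conjugate `x` of `z` in `P` there is a Sylow subgroup containing `E`, with `x` central. -/
theorem exists_px (hM : MinS p G) {P : Sylow p G} {z : G} (hz : z ∈ (P : Subgroup G))
    (hzc : ∀ x ∈ (P : Subgroup G), x * z = z * x) {g : G} (hg : g * z * g⁻¹ ∈ (P : Subgroup G)) :
    ∃ Q : Sylow p G, g * z * g⁻¹ ∈ (Q : Subgroup G) ∧
      (∀ x ∈ (Q : Subgroup G), x * (g * z * g⁻¹) = (g * z * g⁻¹) * x) ∧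
      EE z (P : Subgroup G) ≤ (Q : Subgroup G) := by
  set x := g * z * g⁻¹ with hx
  set C := centralizer ({x} : Set G) with hC
  have h1 := central_smul hz hzc g
  rw [← hx] at h1
  have hPC : ((g • P : Sylow p G) : Subgroup G) ≤ C := le_sylow_centralizer h1.2
  have hab := EE_comm hM hz hzc P.isPGroup'
  have hEC : EE z (P : Subgroup G) ≤ C := by
    intro e he
    exact Subgroup.mem_centralizer_singleton_iff.mpr (hab e he x (mem_EE hg))
  have hE : IsPGroup p ((EE z (P : Subgroup G)).subgroupOf C) := by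
    have : IsPGroup p (EE z (P : Subgroup G)) := P.isPGroup'.to_le (EE_le z _)
    exact this.comap_of_injective C.subtype C.subtype_injective
  obtain ⟨R, hR⟩ := hE.exists_le_sylow
  obtain ⟨c, hc⟩ := MulAction.exists_smul_eq C ((g • P).subtype hPC) R
  refine ⟨(c : G) • (g • P), ?_, ?_, ?_⟩
  · rw [mem_smul_sylow]
    have hcx := Subgroup.mem_centralizer_singleton_iff.mp c.2
    have : (c : G)⁻¹ * x * c = x := by
      rw [mul_assoc, ← hcx, inv_mul_cancel_left]
    rw [this]; exact h1.1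
  · intro y hy
    rw [mem_smul_sylow] at hy
    have h2 := h1.2 _ hy
    have hcx := Subgroup.mem_centralizer_singleton_iff.mp c.2
    have hcx' : (c : G) * x * (c : G)⁻¹ = x := by rw [hcx, mul_inv_cancel_right]
    calc y * x = (c : G) * (((c : G)⁻¹ * y * c) * ((c : G)⁻¹ * x * c)) * (c : G)⁻¹ := by group
      _ = (c : G) * (((c : G)⁻¹ * y * c) * x) * (c : G)⁻¹ := by
          congr 3
          rw [mul_assoc, ← hcx, inv_mul_cancel_left]
      _ = (c : G) * (x * ((c : G)⁻¹ * y * c)) * (c : G)⁻¹ := by rw [h2]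
      _ = ((c : G) * x * (c : G)⁻¹) * y := by group
      _ = x * y := by rw [hcx']
  · intro e he
    rw [mem_smul_sylow]
    have heR : (⟨e, hEC he⟩ : C) ∈ (R : Subgroup C) := hR (Subgroup.mem_subgroupOf.mpr he)
    rw [← hc, mem_smul_sylow] at heR
    have := heR
    rw [Sylow.coe_subtype, Subgroup.mem_subgroupOf] at this
    simpa using this



theorem pow_closure {Y : Type*} [Group Y] {q : ℕ} {a b : Y} (hab : Commute a b) (ha : a ^ q = 1)
    (hb : b ^ q = 1) : ∀ y ∈ closure ({a, b} : Set Y), y ^ q = 1 := by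
  intro y hy
  have h : ∃ m n : ℤ, y = a ^ m * b ^ n := by
    induction hy using Subgroup.closure_induction with
    | mem x hx =>
      rcases hx with rfl | hx
      · exact ⟨1, 0, by simp⟩
      · rw [Set.mem_singleton_iff] at hx
        subst hx
        exact ⟨0, 1, by simp⟩
    | one => exact ⟨0, 0, by simp⟩
    | mul x y _ _ h1 h2 =>
      obtain ⟨m, n, rfl⟩ := h1
      obtain ⟨m', n', rfl⟩ := h2
      refine ⟨m + m', n + n', ?_⟩
      have : Commute (b ^ n) (a ^ m') := (hab.symm.zpow_zpow n m')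
      rw [mul_assoc, ← mul_assoc (b ^ n), this.eq, zpow_add, zpow_add]
      group
    | inv x _ h1 =>
      obtain ⟨m, n, rfl⟩ := h1
      refine ⟨-m, -n, ?_⟩
      have : Commute (a ^ m) (b ^ n) := (hab.zpow_zpow m n)
      rw [this.eq, mul_inv_rev, zpow_neg, zpow_neg]
  obtain ⟨m, n, rfl⟩ := h
  rw [(hab.zpow_zpow m n).mul_pow, ← zpow_natCast, ← zpow_natCast, ← zpow_mul, ← zpow_mul,
    mul_comm m, mul_comm n, zpow_mul, zpow_mul, zpow_natCast, zpow_natCast, ha, hb]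
  simp

omit [Finite G] [Fact p.Prime] in
theorem closure_pow_mem {V : Subgroup G} {a b : G} (ha : a ∈ V) (hb : b ∈ V) (hap : a ^ p = 1)
    (hbp : b ^ p = 1) (hab : a * b * a⁻¹ * b⁻¹ ∈ OO p V) :
    ∀ y ∈ closure ({a, b} : Set G), y ^ p ∈ OO p V := by
  intro y hy
  have h1 : closure ({a, b} : Set G) = (closure ({⟨a, ha⟩, ⟨b, hb⟩} : Set V)).map V.subtype := by
    rw [MonoidHom.map_closure, Set.image_pair]; rfl
  rw [h1] at hy
  obtain ⟨w, hw, rfl⟩ := Subgroup.mem_map.mp hy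
  let N : Subgroup V := pPrimeCore p V
  have h2 : QuotientGroup.mk' N w ∈ closure ({QuotientGroup.mk' N ⟨a, ha⟩, QuotientGroup.mk' N ⟨b, hb⟩} :
      Set (V ⧸ N)) := by
    have : QuotientGroup.mk' N w ∈ (closure ({⟨a, ha⟩, ⟨b, hb⟩} : Set V)).map (QuotientGroup.mk' N) :=
      Subgroup.mem_map_of_mem _ hw
    rwa [MonoidHom.map_closure, Set.image_pair] at this
  have hcomm : Commute (QuotientGroup.mk' N ⟨a, ha⟩) (QuotientGroup.mk' N ⟨b, hb⟩) := by
    obtain ⟨u, hu, huv⟩ := Subgroup.mem_map.mp hab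
    have hu' : u = ⟨a, ha⟩ * ⟨b, hb⟩ * ⟨a, ha⟩⁻¹ * ⟨b, hb⟩⁻¹ := Subtype.ext huv
    have h3 : QuotientGroup.mk' N u = 1 := (QuotientGroup.eq_one_iff u).mpr hu
    rw [hu', map_mul, map_mul, map_mul, map_inv, map_inv, mul_inv_eq_one, mul_inv_eq_iff_eq_mul] at h3
    exact h3
  have ea : (⟨a, ha⟩ : V) ^ p = 1 := Subtype.ext (by simpa using hap)
  have eb : (⟨b, hb⟩ : V) ^ p = 1 := Subtype.ext (by simpa using hbp)
  have h3 := pow_closure (q := p) hcomm (by rw [← map_pow, ea, map_one])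
    (by rw [← map_pow, eb, map_one]) _ h2
  rw [← map_pow] at h3
  have h4 : w ^ p ∈ N := (QuotientGroup.eq_one_iff _).mp h3
  exact Subgroup.mem_map.mpr ⟨w ^ p, h4, rfl⟩

/-- `O_{p',p}`-membership of the conjugates of `z` in `P`. -/
theorem star (hM : MinS p G) {P : Sylow p G} {z : G} (hz : z ∈ (P : Subgroup G)) (hz1 : z ≠ 1)
    (hzp : z ^ p = 1) (hzc : ∀ x ∈ (P : Subgroup G), x * z = z * x) {V : Subgroup G} (hV : V ≠ ⊤)
    (hPV : (P : Subgroup G) ≤ V) {g : G} (hg : g * z * g⁻¹ ∈ (P : Subgroup G)) :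
    g * z * g⁻¹ ∈ OP p V := by
  have hVs := hM.sub V hV
  obtain ⟨Q, hxQ, hxc, hEQ⟩ := exists_px hM hz hzc hg
  set x := g * z * g⁻¹ with hx
  have hxp : x ^ p = 1 := by
    rw [hx, conj_pow, hzp]; group
  refine mem_OP_of_BS (hPV hg) ?_
  intro v hv
  -- the pair
  have hv1 := central_smul hxQ hxc v
  set M := (Q : Subgroup G) ⊔ ((v • Q : Sylow p G) : Subgroup G) with hM'
  have h2 := two_central hM Q (v • Q) hxQ hxc hv1.1 hv1.2
  set F := OO p M ⊓ V with hF
  have hEM : EE z (P : Subgroup G) ≤ M := hEQ.trans le_sup_left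
  have hF1 : F ≤ OO p V := by
    refine lemL (z := z) (E := EE z (P : Subgroup G)) hVs (Syl.of_sylow P hPV) (EE_le z _)
      (fun s hs e he => EE_normal s hs e he) inf_le_right (coprime_of_le (OO_coprime M) inf_le_left)
      ?_ (self_mem_EE hz) ?_
    · intro e he f hf
      exact ⟨OO_conj (hEM he) hf.1, V.mul_mem (V.mul_mem (hPV (EE_le z _ he)) hf.2)
        (V.inv_mem (hPV (EE_le z _ he)))⟩
    · intro f hf hfz
      -- (++) for Q
      have hx1 : x ≠ 1 := by
        intro h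
        apply hz1
        have : z = g⁻¹ * x * g := by rw [hx]; group
        rw [this, h]; group
      have hEE : EE x (Q : Subgroup G) = EE z (P : Subgroup G) := by
        rw [hx, EE_conj]; exact EE_eq hEQ
      have h3 : f ∈ th p z := pp hM hxQ hx1 hxc (K := OO p M) (OO_coprime M)
        (fun y hy k hk => OO_conj (le_sup_left (a := (Q : Subgroup G)) hy) hk)
        (by rw [hEE]; exact self_mem_EE hz) hz1 hf.1 hfz
      have h4 : th p z ⊓ V ≤ OO p V := by
        refine le_OO_of_inv hVs (Syl.of_sylow P hPV) inf_le_right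
          (coprime_of_le (OO_coprime _) inf_le_left) ?_
        intro s hs y hy
        exact ⟨OO_conj (le_sylow_centralizer hzc hs) hy.1, V.mul_mem (V.mul_mem (hPV hs) hy.2)
          (V.inv_mem (hPV hs))⟩
      exact h4 ⟨h3, hf.2⟩
  have hxV : x ∈ V := hPV hg
  have hyV : v * x * v⁻¹ ∈ V := V.mul_mem (V.mul_mem hv hxV) (V.inv_mem hv)
  have h5 : x * (v * x * v⁻¹) * x⁻¹ * (v * x * v⁻¹)⁻¹ ∈ OO p V :=
    hF1 ⟨h2, V.mul_mem (V.mul_mem (V.mul_mem hxV hyV) (V.inv_mem hxV)) (V.inv_mem hyV)⟩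
  intro y hy
  refine ⟨1, ?_⟩
  rw [pow_one]
  refine closure_pow_mem hxV hyV hxp ?_ h5 y hy
  rw [conj_pow, hxp]; group



theorem conj_not_cyclic {P : Sylow p G} {z : G} (hzP : z ∈ (P : Subgroup G)) (hz1 : z ≠ 1)
    (hzp : z ^ p = 1) (hnw : ∃ g : G, g * z * g⁻¹ ∈ (P : Subgroup G) ∧ g * z * g⁻¹ ∉ zpowers z) :
    ¬ IsCyclic (EE z (P : Subgroup G)) := by
  intro hcyc
  obtain ⟨g, hg, hgn⟩ := hnw
  set E := EE z (P : Subgroup G) with hE
  have hp : p.Prime := Fact.out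
  have hord : orderOf z = p := orderOf_eq_prime hzp hz1
  let z' : E := ⟨z, self_mem_EE hzP⟩
  let w : E := ⟨g * z * g⁻¹, mem_EE hg⟩
  have hz' : orderOf z' = p := by rw [Subgroup.orderOf_mk]; exact hord
  have hw : w ^ p = 1 := by
    apply Subtype.ext
    show (g * z * g⁻¹) ^ p = 1
    rw [conj_pow, hzp]; group
  classical
  have := Fintype.ofFinite E
  have h1 : (Finset.univ.filter fun a : E => a ^ p = 1).card ≤ p := IsCyclic.card_pow_eq_one_le hp.pos
  have h2 : (Finset.univ.filter fun a : E => a ∈ zpowers z') ⊆ (Finset.univ.filter fun a : E => a ^ p = 1) := by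
    intro a ha
    rw [Finset.mem_filter] at ha ⊢
    refine ⟨ha.1, ?_⟩
    obtain ⟨k, rfl⟩ := ha.2
    show (z' ^ k) ^ p = 1
    rw [← zpow_natCast, ← zpow_mul, mul_comm, zpow_mul, zpow_natCast, ← hz', pow_orderOf_eq_one, one_zpow]
  have h3 : (Finset.univ.filter fun a : E => a ∈ zpowers z').card = p := by
    rw [← hz', ← Nat.card_zpowers, ← Fintype.card_subtype, Nat.card_eq_fintype_card]
  have h4 := Finset.eq_of_subset_of_card_le h2 (by rw [h3]; exact h1)
  have h5 : w ∈ (Finset.univ.filter fun a : E => a ^ p = 1) := Finset.mem_filter.mpr ⟨Finset.mem_univ _, hw⟩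
  rw [← h4, Finset.mem_filter] at h5
  obtain ⟨k, hk⟩ := h5.2
  apply hgn
  exact ⟨k, by simpa using congrArg Subtype.val hk⟩

/-- Part II, relative to the final contradiction `hfin` (= `H31.PP.final`). -/
theorem partII_of (hM : MinS p G) (P : Sylow p G) {z : G} (hzP : z ∈ (P : Subgroup G)) (hz1 : z ≠ 1)
    (hzp : z ^ p = 1) (hzc : ∀ x ∈ (P : Subgroup G), x * z = z * x)
    (hnw : ∃ g : G, g * z * g⁻¹ ∈ (P : Subgroup G) ∧ g * z * g⁻¹ ∉ zpowers z)
    (hfin : ∀ A : Subgroup G, A ≤ (P : Subgroup G) →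
      (∀ x ∈ (P : Subgroup G), ∀ a ∈ A, x * a * x⁻¹ ∈ A) → (∀ a ∈ A, ∀ b ∈ A, a * b = b * a) →
      ¬ IsCyclic A → ∀ z : G, z ∈ A → z ≠ 1 → (∀ x ∈ (P : Subgroup G), x * z = z * x) →
      (∀ V : Subgroup G, V ≠ ⊤ → (P : Subgroup G) ≤ V → A ≤ OP p V) →
      (∀ g : G, A.map (MulAut.conj g).toMonoidHom ≤ (P : Subgroup G) → ∀ K : Subgroup G,
        (Nat.card K).Coprime p → (∀ x ∈ (P : Subgroup G), ∀ k ∈ K, x * k * x⁻¹ ∈ K) →
        ∀ a ∈ A.map (MulAut.conj g).toMonoidHom, a ≠ 1 → ∀ k ∈ K, k * a = a * k →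
          k ∈ WW p (A.map (MulAut.conj g).toMonoidHom)) → False) : False := by
  refine hfin (EE z (P : Subgroup G)) (EE_le z _) (fun s hs e he => EE_normal s hs e he)
    (EE_comm hM hzP hzc P.isPGroup') (conj_not_cyclic hzP hz1 hzp hnw) z (self_mem_EE hzP) hz1 hzc ?_ ?_
  · intro V hV hPV
    conv_lhs => rw [EE]
    rw [closure_le]
    rintro x ⟨⟨g, rfl⟩, hx⟩
    exact star hM hzP hz1 hzp hzc hV hPV hx
  · intro g hg K hKc hK a ha ha1 k hk hka
    -- E^g = E
    have hEg : (EE z (P : Subgroup G)).map (MulAut.conj g).toMonoidHom = EE z (P : Subgroup G) := by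
      have h1 : (EE z (P : Subgroup G)).map (MulAut.conj g).toMonoidHom ≤ EE z (P : Subgroup G) := by
        have : (EE z (P : Subgroup G)).map (MulAut.conj g).toMonoidHom =
            closure ((MulAut.conj g).toMonoidHom '' {x | (∃ h : G, x = h * z * h⁻¹) ∧ x ∈ (P : Subgroup G)}) := by
          rw [EE, MonoidHom.map_closure]
        rw [this, closure_le]
        rintro _ ⟨x, ⟨⟨h, rfl⟩, hx⟩, rfl⟩
        have h2 : (MulAut.conj g).toMonoidHom (h * z * h⁻¹) ∈ (P : Subgroup G) :=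
          hg (Subgroup.mem_map_of_mem _ (mem_EE hx))
        refine subset_closure ⟨⟨g * h, by simp [MulAut.conj_apply, mul_assoc]⟩, h2⟩
      refine Subgroup.eq_of_le_of_card_ge h1 ?_
      rw [Subgroup.card_map_of_injective (MulEquiv.injective _)]
    rw [hEg] at ha ⊢
    exact subset_closure ⟨a, ha, ha1, pp hM hzP hz1 hzc hKc hK ha ha1 hk hka⟩

end Cfsg.Agent.H87.FlavII
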