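import Mathlib
import Cfsg.Agent.H87.QuotFree
import Cfsg.Agent.H87.GroupModel
import Cfsg.Agent.H11.QdRed
import Cfsg.Agent.H46.Qd2

/-!
# `Qd(p)` and automizers: the fusion system of a group is `Qd(p)`-free iff the group is
-/

set_option autoImplicit false
set_option linter.unusedSectionVars false

namespace Cfsg.Agent.H87

open Cfsg Cfsg.FusionSystem Cfsg.Agent.Fus Matrix

universe u

section Local

variable {Ω : Type u} [Group Ω] {S : Subgroup Ω} {F : FusionSystem S} {p : ℕ} [Fact p.Prime]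

/-- `Q C_S(Q)` is centric for `Q` fully centralized. -/
theorem centric_sup_centralizer [Finite S] {Q : Subgroup Ω} (hQ : F.IsFullyCentralized Q) :
    F.IsCentric (Q ⊔ centralizerIn S Q) := by
  have hQS := hQ.1
  have hle : Q ⊔ centralizerIn S Q ≤ S := sup_le hQS (centralizerIn_le Q)
  refine ⟨hle, fun R hR => ?_⟩
  obtain ⟨f, hf, rfl⟩ := isConj_iff.mp hR
  have hfQ : IsMap F Q f := hf.mono le_sup_left
  have hfC : IsMap F (centralizerIn S Q) f := hf.mono le_sup_right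
  have h1 : img (centralizerIn S Q) f ≤ centralizerIn S (img Q f) := by
    rw [hfC.img_le_iff]
    intro x hx
    exact mem_centralizerIn.mpr ⟨hfC.mem hx, hf.map_centralizer (P := Q) le_sup_left (le_sup_right (a := Q) hx)
      (mem_centralizerIn.mp hx).2⟩
  have h2 : img (centralizerIn S Q) f = centralizerIn S (img Q f) := by
    have := finite_of_le (centralizerIn_le (S := S) (img Q f))
    refine Subgroup.eq_of_le_of_card_ge h1 ?_
    rw [hfC.card_img]
    exact hQ.2 _ hfQ.isConj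
  intro x hx
  obtain ⟨hxS, hxc⟩ := mem_centralizerIn.mp hx
  have h3 : x ∈ centralizerIn S (img Q f) :=
    mem_centralizerIn.mpr ⟨hxS, fun y hy => hxc y (img_mono le_sup_left hy)⟩
  rw [← h2] at h3
  exact img_mono le_sup_right h3

/-- The automizer of any subgroup is realized in a local model. -/
theorem exists_realizing [Finite S] (hS : IsPGroup p S) (hF : F.IsSaturated p) {H : Type*} [Group H]
    (hfree : F.IsSectionFree p H) {R : Subgroup Ω} (hR : R ≤ S) :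
    ∃ (M : Type u) (_ : Group M) (_ : Finite M) (θ : R →* M), Function.Injective θ ∧ ¬ Involves H M ∧
      ∀ α ∈ F.autGroup R, ∃ m : M, ∀ r : R, θ (α r) = m * θ r * m⁻¹ := by
  obtain ⟨R', hRR', hR'⟩ := exists_fullyNormalized (F := F) hR
  obtain ⟨φ, hφ, hφR⟩ := isConj_iff.mp hRR'
  have hcent := centric_sup_centralizer (sat_fullyCentralized hS hF hR')
  obtain ⟨Q₁, hQQ₁, hQ₁⟩ := exists_fullyNormalized (F := F) hcent.1
  obtain ⟨ψ, hψ, hψR⟩ := isConj_iff.mp hQQ₁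
  have hQ₁c := IsCentric_of_isConj hcent hQQ₁
  obtain ⟨N, hN⟩ := exists_isNormalizerSystem F hQ₁.1
  have hfN := finite_of_le (normalizerIn_le (S := S) Q₁)
  obtain ⟨M, _, ι, hM⟩ := exists_model (isPGroup_of_le hS (normalizerIn_le Q₁))
    (isConstrained_normSys hS hF hQ₁ hQ₁c hN)
  have hr := hM.2.1
  have hfM : Finite M := hM.1
  have hQ₁N : Q₁ ≤ normalizerIn S Q₁ := le_normalizerIn hQ₁.1
  have hφm : ∀ x ∈ R, φ x ∈ R' := fun x hx => by rw [← hφR]; exact subset_img hx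
  have hψm : ∀ x ∈ R' ⊔ centralizerIn S R', ψ x ∈ Q₁ := fun x hx => by rw [← hψR]; exact subset_img hx
  have hle : R' ≤ R' ⊔ centralizerIn S R' := le_sup_left
  have hψφ : IsMap F R (fun x => ψ (φ x)) := hψ.comp hφ fun x hx => hle (hφm x hx)
  have hmemN : ∀ x ∈ R, ψ (φ x) ∈ normalizerIn S Q₁ := fun x hx => hQ₁N (hψm _ (hle (hφm x hx)))
  let θ : R →* M := MonoidHom.mk' (fun x => jj ι (ψ (φ x))) fun x y => by
    show jj ι (ψ (φ ((x : Ω) * y))) = _
    have h1 : ψ (φ ((x : Ω) * y)) = ψ (φ x) * ψ (φ y) := hψφ.map_mul x.2 y.2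
    rw [h1, jj_mul (hmemN x x.2) (hmemN y y.2)]
  refine ⟨M, inferInstance, hfM, θ, ?_, hfree Q₁ hQ₁ hQ₁c N hN M ι hM, fun α hα => ?_⟩
  · intro x y hxy
    exact Subtype.ext (hψφ.inj x.2 y.2 (jj_inj hr.1 (hmemN x x.2) (hmemN y y.2) hxy))
  · -- transport `α` to `R'`
    have hαm := isMap_ofAut hR hα
    have hmi : ∀ y ∈ R', minv R φ y ∈ R := fun y hy => by
      rw [← hφR] at hy
      exact hφ.minv_mem hy
    have hmim : IsMap F R' (minv R φ) := by
      have := hφ.minv_isMap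
      rwa [hφR] at this
    have hα' : IsMap F R' (fun y => φ (ofAut α (minv R φ y))) :=
      hφ.comp (hαm.comp hmim hmi) fun y hy => ofAut_mem α (hmi y hy)
    have hα'i : img R' (fun y => φ (ofAut α (minv R φ y))) = R' := by
      have := finite_of_le hR'.1
      exact hα'.img_eq fun y hy => hφm _ (ofAut_mem α (hmi y hy))
    obtain ⟨g, hg, hgi, hgα⟩ := exists_extend_QC hS hF hR' hα' hα'i
    -- transport to `Q₁`
    have hmi₂ : ∀ y ∈ Q₁, minv (R' ⊔ centralizerIn S R') ψ y ∈ R' ⊔ centralizerIn S R' := fun y hy => by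
      rw [← hψR] at hy
      exact hψ.minv_mem hy
    have hmim₂ : IsMap F Q₁ (minv (R' ⊔ centralizerIn S R') ψ) := by
      have := hψ.minv_isMap
      rwa [hψR] at this
    have hgm : ∀ x ∈ R' ⊔ centralizerIn S R', g x ∈ R' ⊔ centralizerIn S R' := fun x hx => by
      have : g x ∈ img (R' ⊔ centralizerIn S R') g := subset_img hx
      rwa [hgi] at this
    have hg' : IsMap F Q₁ (fun y => ψ (g (minv (R' ⊔ centralizerIn S R') ψ y))) :=
      hψ.comp (hg.comp hmim₂ hmi₂) fun y hy => hgm _ (hmi₂ y hy)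
    have hg'i : img Q₁ (fun y => ψ (g (minv (R' ⊔ centralizerIn S R') ψ y))) = Q₁ := by
      have := finite_of_le hQ₁.1
      exact hg'.img_eq fun y hy => hψm _ (hgm _ (hmi₂ y hy))
    have hgN := (isMap_normSys_of_le hN le_rfl).mpr ⟨hQ₁N, hg', hg'i⟩
    obtain ⟨-, -, m, hm⟩ := (isMap_realized hr).mp hgN
    refine ⟨m, fun r => ?_⟩
    have hr' := hφm r r.2
    have h1 := hm (ψ (φ r)) (hψm _ (hle hr'))
    have h2 : ψ (g (minv (R' ⊔ centralizerIn S R') ψ (ψ (φ r)))) = ψ (φ (ofAut α r)) := by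
      rw [hψ.minv_apply (hle hr'), hgα _ hr', hφ.minv_apply r.2]
    rw [h2] at h1
    show jj ι (ψ (φ (α r : R))) = m * jj ι (ψ (φ r)) * m⁻¹
    rw [← h1, ofAut_apply α r.2]

/-- A non-`p`-stable automizer (relative to `R₀`) gives a section `Qd(p)`. -/
theorem not_free_of_aut [Finite S] (hp2 : p ≠ 2) (hS : IsPGroup p S) (hF : F.IsSaturated p)
    (hfree : F.IsSectionFree p ↥(qd p)) {R : Subgroup Ω} (hR : R ≤ S) (R₀ : Subgroup R) (hR₀ : R₀.Normal)
    {α β : MulAut R} (hα : α ∈ F.autGroup R) (hβ : β ∈ F.autGroup R) (hα₀ : ∀ r, α r ∈ R₀ ↔ r ∈ R₀)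
    (hβ₀ : ∀ r, β r ∈ R₀ ↔ r ∈ R₀) (hquad : ∀ r, α (α r * r⁻¹) * (α r * r⁻¹)⁻¹ ∈ R₀)
    (hw : ∀ k : ℕ, ∃ r, ((α * (β * α * β⁻¹) * α) ^ p ^ k) r * r⁻¹ ∉ R₀) : False := by
  obtain ⟨M, _, hfM, θ, hθ, hfr, hreal⟩ := exists_realizing hS hF hfree hR
  obtain ⟨a, ha⟩ := hreal α hα
  obtain ⟨b, hb⟩ := hreal β hβ
  have hfR : Finite R := finite_of_le hR
  -- the subgroup normalizing both images
  let Y₀ : Subgroup M := Subgroup.normalizer (θ.range : Set M) ⊓ Subgroup.normalizer ((R₀.map θ : Subgroup M) : Set M)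
  have hmem : ∀ (γ : MulAut R) (m : M), (∀ r, θ (γ r) = m * θ r * m⁻¹) → (∀ r, γ r ∈ R₀ ↔ r ∈ R₀) → m ∈ Y₀ := by
    intro γ m h h₀
    refine ⟨mem_normalizer_of_conj ?_, mem_normalizer_of_conj ?_⟩
    · rintro _ ⟨r, rfl⟩
      rw [← h r]
      exact ⟨_, rfl⟩
    · rintro _ ⟨r, hr, rfl⟩
      rw [← h r]
      exact ⟨_, (h₀ r).mpr hr, rfl⟩
  have haY := hmem α a ha hα₀
  have hbY := hmem β b hb hβ₀
  have hθn : θ.range ≤ Y₀ := by
    rintro _ ⟨r, rfl⟩
    refine hmem (MulAut.conj r) _ (fun s => by rw [MulAut.conj_apply, map_mul, map_mul, map_inv]) fun s => ?_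
    rw [MulAut.conj_apply]
    constructor
    · intro h
      have := hR₀.conj_mem _ h r⁻¹
      have e : r⁻¹ * (r * s * r⁻¹) * r⁻¹⁻¹ = s := by group
      rwa [e] at this
    · exact fun h => hR₀.conj_mem _ h r
  let Z₀ : Subgroup Y₀ := (R₀.map θ).subgroupOf Y₀
  have hZ₀n : Z₀.Normal := by
    refine ⟨fun x hx g => ?_⟩
    exact (Subgroup.mem_normalizer_iff.mp g.2.2 x).mp hx
  let W₀ : Subgroup Y₀ := θ.range.subgroupOf Y₀
  have hW₀n : W₀.Normal := by
    refine ⟨fun x hx g => ?_⟩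
    exact (Subgroup.mem_normalizer_iff.mp g.2.1 x).mp hx
  let Y := Y₀ ⧸ Z₀
  let q : Y₀ →* Y := QuotientGroup.mk' Z₀
  have hqs : Function.Surjective q := QuotientGroup.mk'_surjective Z₀
  have hq1 : ∀ y, q y = 1 ↔ (y : M) ∈ R₀.map θ := fun y => QuotientGroup.eq_one_iff y
  let t : R →* Y₀ := θ.codRestrict Y₀ fun r => hθn ⟨r, rfl⟩
  have hqt : ∀ r, q (t r) = 1 ↔ r ∈ R₀ := by
    intro r
    rw [hq1]
    constructor
    · rintro ⟨s, hs, hsr⟩
      rwa [← hθ hsr]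
    · exact fun h => ⟨r, h, rfl⟩
  let W : Subgroup Y := W₀.map q
  have hWn : W.Normal := hW₀n.map q hqs
  have hWmem : ∀ y, y ∈ W ↔ ∃ r, q (t r) = y := by
    intro y
    constructor
    · rintro ⟨x, ⟨r, hr⟩, rfl⟩
      refine ⟨r, ?_⟩
      congr 1
      exact Subtype.ext hr
    · rintro ⟨r, rfl⟩
      exact ⟨t r, ⟨r, rfl⟩, rfl⟩
  have hRp : IsPGroup p R := isPGroup_of_le hS hR
  have hWp : IsPGroup p W := by
    have h1 : W = (q.comp t).range := by
      ext y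
      rw [hWmem]
      exact Iff.rfl
    rw [h1]
    exact hRp.of_surjective (q.comp t).rangeRestrict (q.comp t).rangeRestrict_surjective
  -- the action
  let A : Y := q ⟨a, haY⟩
  let B : Y := q ⟨b, hbY⟩
  have hA : ∀ r, q (t (α r)) = A * q (t r) * A⁻¹ := by
    intro r
    show _ = q ⟨a, haY⟩ * q (t r) * (q ⟨a, haY⟩)⁻¹
    rw [← map_inv, ← map_mul, ← map_mul]
    congr 1
    exact Subtype.ext (ha r)
  have hB : ∀ r, q (t (β r)) = B * q (t r) * B⁻¹ := by
    intro r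
    show _ = q ⟨b, hbY⟩ * q (t r) * (q ⟨b, hbY⟩)⁻¹
    rw [← map_inv, ← map_mul, ← map_mul]
    congr 1
    exact Subtype.ext (hb r)
  have hBi : ∀ r, q (t (β⁻¹ r)) = B⁻¹ * q (t r) * B := by
    intro r
    have := hB (β⁻¹ r)
    rw [MulAut.apply_inv_self] at this
    rw [this]
    group
  have hwr : ∀ r, q (t ((α * (β * α * β⁻¹) * α) r)) =
      (A * (B * A * B⁻¹) * A) * q (t r) * (A * (B * A * B⁻¹) * A)⁻¹ := by
    intro r
    show q (t (α (β (α (β⁻¹ (α r)))))) = _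
    rw [hA, hB, hA, hBi, hA]
    group
  have hwk : ∀ (n : ℕ) (r : R), q (t (((α * (β * α * β⁻¹) * α) ^ n) r)) =
      (A * (B * A * B⁻¹) * A) ^ n * q (t r) * ((A * (B * A * B⁻¹) * A) ^ n)⁻¹ := by
    have gen : ∀ (C x : Y) (n : ℕ), C * (C ^ n * x * (C ^ n)⁻¹) * C⁻¹ = C ^ (n + 1) * x * (C ^ (n + 1))⁻¹ := by
      intro C x n
      rw [pow_succ']
      group
    intro n
    induction n with
    | zero => intro r; simp
    | succ n ih =>
      intro r
      rw [pow_succ', MulAut.mul_apply, hwr, ih, gen]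
  -- quadratic action
  have hQ : H11.Quad A W := by
    intro v hv
    obtain ⟨r, rfl⟩ := (hWmem v).mp hv
    have h1 : A * q (t r) * A⁻¹ * (q (t r))⁻¹ = q (t (α r * r⁻¹)) := by
      rw [map_mul, map_mul, map_inv, map_inv, hA]
    rw [h1]
    have h2 := (hqt _).mpr (hquad r)
    rw [map_mul, map_mul, map_inv, map_inv, mul_inv_eq_one, hA] at h2
    exact mul_inv_eq_iff_eq_mul.mp h2
  -- conclusion
  apply hfr
  have hY : Involves ↥(qd p) Y := by
    refine H11.involves_qd_of_not_stable hp2 W hWp A hQ fun hcon => ?_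
    have hn : (pCore p (Y ⧸ Subgroup.centralizer (W : Set Y))).Normal := pCore_normal' p _
    have h1 : (QuotientGroup.mk (A * (B * A * B⁻¹) * A) : Y ⧸ Subgroup.centralizer (W : Set Y)) ∈
        pCore p (Y ⧸ Subgroup.centralizer (W : Set Y)) := by
      rw [QuotientGroup.mk_mul, QuotientGroup.mk_mul, QuotientGroup.mk_mul, QuotientGroup.mk_mul, QuotientGroup.mk_inv]
      exact Subgroup.mul_mem _ (Subgroup.mul_mem _ hcon (hn.conj_mem _ hcon _)) hcon
    obtain ⟨k, hk⟩ := isPGroup_pCore p (Y ⧸ Subgroup.centralizer (W : Set Y)) ⟨_, h1⟩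
    have hk' : (QuotientGroup.mk ((A * (B * A * B⁻¹) * A) ^ p ^ k) : Y ⧸ Subgroup.centralizer (W : Set Y)) = 1 := by
      rw [QuotientGroup.mk_pow]
      exact congrArg Subtype.val hk
    rw [QuotientGroup.eq_one_iff, Subgroup.mem_centralizer_iff] at hk'
    obtain ⟨r, hr⟩ := hw k
    apply hr
    rw [← hqt, map_mul, map_mul, map_inv, map_inv, hwk, mul_inv_eq_one]
    have h2 := hk' (q (t r)) ((hWmem _).mpr ⟨r, rfl⟩)
    rw [← h2, mul_inv_cancel_right]
  exact involves_of_injective Y₀.subtype Y₀.subtype_injective (involves_of_surjective q hqs hY)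

end Local

section Group

open Cfsg.Agent.H46

variable {F : Type*} [Field F]

local notation "SL2" => Matrix.SpecialLinearGroup (Fin 2)

/-- the transvection -/
def tU (F : Type*) [Field F] : SL2 F := ⟨!![1, 1; 0, 1], by simp [Matrix.det_fin_two]⟩

/-- the Weyl element -/
def tS (F : Type*) [Field F] : SL2 F := ⟨!![0, 1; -1, 0], by simp [Matrix.det_fin_two]⟩

/-- the inverse of the Weyl element -/
def tS' (F : Type*) [Field F] : SL2 F := ⟨!![0, -1; 1, 0], by simp [Matrix.det_fin_two]⟩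

theorem tS_mul : tS F * tS' F = 1 := by
  refine Matrix.SpecialLinearGroup.ext _ _ fun i j => ?_
  change (!![0, 1; -1, 0] * !![0, -1; 1, 0] : Matrix (Fin 2) (Fin 2) F) i j = (1 : Matrix (Fin 2) (Fin 2) F) i j
  fin_cases i <;> fin_cases j <;> simp [Matrix.mul_apply, Fin.sum_univ_two]

theorem tS_inv : (tS F)⁻¹ = tS' F := inv_eq_of_mul_eq_one_right tS_mul

theorem word_eq : tU F * (tS F * tU F * (tS F)⁻¹) * tU F = tS F := by
  rw [tS_inv]
  refine Matrix.SpecialLinearGroup.ext _ _ fun i j => ?_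
  change (!![1, 1; 0, 1] * (!![0, 1; -1, 0] * !![1, 1; 0, 1] * !![0, -1; 1, 0]) * !![1, 1; 0, 1] :
    Matrix (Fin 2) (Fin 2) F) i j = (!![0, 1; -1, 0] : Matrix (Fin 2) (Fin 2) F) i j
  fin_cases i <;> fin_cases j <;> simp [Matrix.mul_apply, Fin.sum_univ_two]

theorem tS_sq : tS F * tS F = -1 := by
  refine Matrix.SpecialLinearGroup.ext _ _ fun i j => ?_
  change (!![0, 1; -1, 0] * !![0, 1; -1, 0] : Matrix (Fin 2) (Fin 2) F) i j = (-1 : Matrix (Fin 2) (Fin 2) F) i j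
  fin_cases i <;> fin_cases j <;> simp [Matrix.mul_apply, Fin.sum_univ_two]

theorem tS_ne : tS F ≠ 1 := by
  intro h
  have h7 : (!![0, 1; -1, 0] : Matrix (Fin 2) (Fin 2) F) 0 1 = (1 : Matrix (Fin 2) (Fin 2) F) 0 1 :=
    congrArg (fun M : SL2 F => M.1 0 1) h
  simp at h7

theorem tS_pow_ne {p : ℕ} (hp : p.Prime) (hp2 : p ≠ 2) (k : ℕ) : (tS F) ^ p ^ k ≠ 1 := by
  intro h
  have h4 : (tS F) ^ 4 = 1 := by
    rw [show (4 : ℕ) = 2 * 2 from rfl, pow_mul, pow_two (tS F), tS_sq]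
    simp
  have h5 : orderOf (tS F) ∣ Nat.gcd 4 (p ^ k) :=
    Nat.dvd_gcd (orderOf_dvd_of_pow_eq_one h4) (orderOf_dvd_of_pow_eq_one h)
  have h6 : Nat.Coprime 4 (p ^ k) := by
    refine Nat.Coprime.pow_right k ?_
    have : Nat.Coprime 2 p := (Nat.coprime_primes Nat.prime_two hp).mpr (Ne.symm hp2)
    rw [show (4 : ℕ) = 2 ^ 2 from rfl]
    exact this.pow_left 2
  rw [h6.gcd_eq_one, Nat.dvd_one, orderOf_eq_one_iff] at h5
  exact tS_ne h5

theorem one_act (v : Fin 2 → F) : ((1 : SL2 F) : Matrix (Fin 2) (Fin 2) F) *ᵥ v = v := one_mulVec v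

theorem qdElt_conj_one (A : SL2 F) (v w : Fin 2 → F) :
    qdElt A v * qdElt 1 w * (qdElt A v)⁻¹ = qdElt 1 ((A : Matrix (Fin 2) (Fin 2) F) *ᵥ w) := by
  rw [mul_inv_eq_iff_eq_mul, qdElt_mul, qdElt_mul, mul_one, one_mul, one_act, add_comm]

theorem tU_quad (w : Fin 2 → F) : (tU F : Matrix (Fin 2) (Fin 2) F) *ᵥ ((tU F : Matrix (Fin 2) (Fin 2) F) *ᵥ w - w) =
    (tU F : Matrix (Fin 2) (Fin 2) F) *ᵥ w - w := by
  change !![1, 1; 0, 1] *ᵥ (!![1, 1; 0, 1] *ᵥ w - w) = !![1, 1; 0, 1] *ᵥ w - w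
  ext i
  fin_cases i <;> simp [Matrix.mulVec, dotProduct, Fin.sum_univ_two]

end Group

section Main

open Cfsg.Agent.H46

variable {G : Type u} [Group G] [Finite G] {p : ℕ} [Fact p.Prime]

/-- If `Qd(p)` is involved in `G` then the fusion system of `G` is not `Qd(p)`-free. -/
theorem not_free_of_involves (hp2 : p ≠ 2) (P : Sylow p G) (hinv : Involves ↥(qd p) G)
    (hfree : (groupFusionSystem (P : Subgroup G)).IsSectionFree p ↥(qd p)) : False := by
  classical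
  have hp : p.Prime := Fact.out
  obtain ⟨K, N, hN, ⟨e⟩⟩ := hinv
  let σ : K →* ↥(qdOver (ZMod p)) := (e.toMonoidHom : (K ⧸ N.subgroupOf K) →* ↥(qdOver (ZMod p))).comp
    (QuotientGroup.mk' (N.subgroupOf K))
  have hσ : Function.Surjective σ := e.surjective.comp (QuotientGroup.mk'_surjective _)
  have hchar : CharP (ZMod p) p := inferInstance
  let V : Subgroup ↥(qdOver (ZMod p)) := (qdProj (F := ZMod p)).ker
  have hVp : IsPGroup p V := qdKer_isPGroup
  let U : Subgroup K := V.comap σ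
  have hUn : U.Normal := Subgroup.Normal.comap inferInstance σ
  obtain ⟨T⟩ : Nonempty (Sylow p U) := inferInstance
  let TK : Subgroup K := (T : Subgroup U).map U.subtype
  have hTKp : IsPGroup p TK := T.isPGroup'.map _
  have hfrat : Subgroup.normalizer (TK : Set K) ⊔ U = ⊤ := T.normalizer_sup_eq_top
  -- `σ` maps `TK` onto `V`
  have hTV : ∀ v ∈ V, ∃ r ∈ TK, σ r = v := by
    intro v hv
    let σU : U →* V := (σ.comp U.subtype).codRestrict V fun x => x.2
    have hs : Function.Surjective σU := by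
      rintro ⟨w, hw⟩
      obtain ⟨x, rfl⟩ := hσ w
      exact ⟨⟨x, hw⟩, rfl⟩
    have h1 : ((T.mapSurjective hs : Sylow p V) : Subgroup V) = ⊤ := by
      have h2 : IsPGroup p (⊤ : Subgroup V) := hVp.to_subgroup ⊤
      exact ((T.mapSurjective hs).is_maximal' h2 le_top).symm
    have h3 : (⟨v, hv⟩ : V) ∈ ((T.mapSurjective hs : Sylow p V) : Subgroup V) := by rw [h1]; trivial
    rw [Sylow.coe_mapSurjective] at h3
    obtain ⟨r, hr, hrv⟩ := h3
    exact ⟨r, ⟨r, hr, rfl⟩, congrArg Subtype.val hrv⟩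
  have hTσ : ∀ r ∈ TK, ∃ w, σ r = qdElt 1 w := by
    rintro _ ⟨r, -, rfl⟩
    obtain ⟨A, w, hAw⟩ := exists_qdElt (σ (U.subtype r))
    have h1 : σ (U.subtype r) ∈ V := r.2
    rw [hAw] at h1
    rw [mem_ker_qdProj.mp h1] at hAw
    exact ⟨w, hAw⟩
  -- elements of `N_K(TK)` above given elements of `SL₂(p)`
  have hlift : ∀ A, ∃ n ∈ Subgroup.normalizer (TK : Set K), ∃ v, σ n = qdElt A v := by
    intro A
    obtain ⟨x, hx⟩ := hσ (qdElt A 0)
    have h1 : x ∈ Subgroup.normalizer (TK : Set K) ⊔ U := by rw [hfrat]; trivial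
    obtain ⟨n, hn, y, hy, rfl⟩ := Subgroup.mem_sup_of_normal_right.mp h1
    obtain ⟨B, v, hB⟩ := exists_qdElt (σ n)
    refine ⟨n, hn, v, ?_⟩
    have h2 : qdProj (σ (n * y)) = qdProj (σ n) := by
      rw [map_mul, map_mul, MonoidHom.mem_ker.mp (show σ y ∈ V from hy), mul_one]
    rw [hx, hB, qdProj_elt, qdProj_elt] at h2
    rw [hB, h2]
  obtain ⟨nu, hnu, vu, hσu⟩ := hlift (tU (ZMod p))
  obtain ⟨ns, hns, vs, hσs⟩ := hlift (tS (ZMod p))
  -- conjugate into `P`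
  let R₁ : Subgroup G := TK.map K.subtype
  have hR₁p : IsPGroup p R₁ := hTKp.map _
  obtain ⟨x, -, hx⟩ := (sylIn_top P).exists_cj_le (K := R₁) le_top hR₁p
  let R : Subgroup G := cj x R₁
  have hRP : R ≤ P := hx
  let ε : TK →* G := (MulAut.conj x).toMonoidHom.comp (K.subtype.comp TK.subtype)
  have hε : ∀ r : TK, ε r = x * (r : K) * x⁻¹ := fun _ => rfl
  have hεinj : Function.Injective ε := by
    intro a b hab
    rw [hε, hε] at hab
    exact Subtype.ext (Subtype.ext (mul_left_cancel (mul_right_cancel hab)))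
  have hεR : ε.range = R := by
    ext y
    constructor
    · rintro ⟨r, rfl⟩
      exact ⟨((r : K) : G), ⟨r, r.2, rfl⟩, rfl⟩
    · rintro ⟨_, ⟨r, hr, rfl⟩, rfl⟩
      exact ⟨⟨r, hr⟩, rfl⟩
  let i : TK ≃* R := (MonoidHom.ofInjective hεinj).trans (MulEquiv.subgroupCongr hεR)
  have hi : ∀ r, (i r : G) = x * (r : K) * x⁻¹ := fun r => rfl
  -- the action of `N_K(TK)` on `R`
  have hconj : ∀ n ∈ Subgroup.normalizer (TK : Set K), ∀ r ∈ TK, n * r * n⁻¹ ∈ TK := fun n hn r hr =>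
    (Subgroup.mem_normalizer_iff.mp hn r).mp hr
  have hnorm : ∀ n ∈ Subgroup.normalizer (TK : Set K), x * (n : G) * x⁻¹ ∈ Subgroup.normalizer (R : Set G) := by
    intro n hn
    refine mem_normalizer_of_conj fun y hy => ?_
    obtain ⟨r, hr⟩ := i.surjective ⟨y, hy⟩
    have hy' : y = x * (r : K) * x⁻¹ := by rw [← hi, hr]
    have h1 : x * (n : G) * x⁻¹ * y * (x * (n : G) * x⁻¹)⁻¹ = i ⟨n * r * n⁻¹, hconj n hn r r.2⟩ := by
      rw [hi, hy']
      show _ = x * (((n : K) : G) * ((r : K) : G) * ((n : K) : G)⁻¹) * x⁻¹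
      group
    rw [h1]
    exact (i _).2
  let τ : R →* ↥(qdOver (ZMod p)) := (σ.comp TK.subtype).comp i.symm.toMonoidHom
  have hτ : ∀ r : TK, τ (i r) = σ r := fun r => by
    show σ (i.symm (i r) : TK) = σ r
    rw [MulEquiv.symm_apply_apply]
  have hτc : ∀ (n : K) (hn : n ∈ Subgroup.normalizer (TK : Set K)) (r : R),
      τ (conjAut _ (hnorm n hn) r) = σ n * τ r * (σ n)⁻¹ := by
    intro n hn r
    obtain ⟨r, rfl⟩ := i.surjective r
    have h1 : conjAut _ (hnorm n hn) (i r) = i ⟨n * r * n⁻¹, hconj n hn r r.2⟩ := by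
      apply Subtype.ext
      rw [hi]
      show x * (n : G) * x⁻¹ * (i r : G) * (x * (n : G) * x⁻¹)⁻¹ = x * (((n : K) : G) * ((r : K) : G) * ((n : K) : G)⁻¹) * x⁻¹
      rw [hi]
      group
    rw [h1, hτ, hτ]
    show σ (n * r * n⁻¹) = _
    rw [map_mul, map_mul, map_inv]
  have hmem : ∀ (n : K) (hn : n ∈ Subgroup.normalizer (TK : Set K)),
      conjAut _ (hnorm n hn) ∈ (groupFusionSystem (P : Subgroup G)).autGroup R := by
    intro n hn
    rw [mem_autGroup_iff hRP, isMap_group]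
    exact ⟨hRP, fun y hy => hRP (ofAut_mem _ hy), _, fun y hy => ofAut_conjAut _ (hnorm n hn) hy⟩
  have hτV : ∀ r : R, ∃ w, τ r = qdElt 1 w := by
    intro r
    obtain ⟨r, rfl⟩ := i.surjective r
    rw [hτ]
    exact hTσ r r.2
  let α := conjAut _ (hnorm nu hnu)
  let β := conjAut _ (hnorm ns hns)
  have hα : ∀ r, τ (α r) = qdElt (tU (ZMod p)) vu * τ r * (qdElt (tU (ZMod p)) vu)⁻¹ := fun r => by
    rw [← hσu]; exact hτc nu hnu r
  have hβ : ∀ r, τ (β r) = qdElt (tS (ZMod p)) vs * τ r * (qdElt (tS (ZMod p)) vs)⁻¹ := fun r => by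
    rw [← hσs]; exact hτc ns hns r
  have hker : ∀ (γ : MulAut R) (g : ↥(qdOver (ZMod p))), (∀ r, τ (γ r) = g * τ r * g⁻¹) →
      ∀ r, γ r ∈ τ.ker ↔ r ∈ τ.ker := by
    intro γ g h r
    rw [MonoidHom.mem_ker, MonoidHom.mem_ker, h r]
    constructor
    · intro h1
      have : τ r = g⁻¹ * (g * τ r * g⁻¹) * g := by group
      rw [this, h1]
      group
    · intro h1
      rw [h1]
      group
  refine not_free_of_aut hp2 P.isPGroup' (group_saturated P) hfree hRP τ.ker inferInstance (hmem nu hnu) (hmem ns hns)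
    (hker α _ hα) (hker β _ hβ) (fun r => ?_) fun k => ?_
  · -- quadratic action
    obtain ⟨w, hw⟩ := hτV r
    have h1 : τ (α r * r⁻¹) = qdElt 1 ((tU (ZMod p) : Matrix (Fin 2) (Fin 2) (ZMod p)) *ᵥ w - w) := by
      rw [map_mul, map_inv, hα, hw, qdElt_conj_one, mul_inv_eq_iff_eq_mul, qdElt_mul, one_mul,
        one_act, add_sub_cancel]
    show τ (α (α r * r⁻¹) * (α r * r⁻¹)⁻¹) = 1
    rw [map_mul, map_inv, hα, h1, qdElt_conj_one, tU_quad, mul_inv_cancel]
  · -- the word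
    by_contra hcon
    push Not at hcon
    have hβi : ∀ r, τ (β⁻¹ r) = (qdElt (tS (ZMod p)) vs)⁻¹ * τ r * qdElt (tS (ZMod p)) vs := by
      intro r
      have := hβ (β⁻¹ r)
      rw [MulAut.apply_inv_self] at this
      rw [this]
      group
    obtain ⟨v, hv⟩ : ∃ v, qdElt (tU (ZMod p)) vu * (qdElt (tS (ZMod p)) vs * qdElt (tU (ZMod p)) vu *
        (qdElt (tS (ZMod p)) vs)⁻¹) * qdElt (tU (ZMod p)) vu = qdElt (tS (ZMod p)) v := by
      obtain ⟨A, v, hAv⟩ := exists_qdElt (qdElt (tU (ZMod p)) vu * (qdElt (tS (ZMod p)) vs * qdElt (tU (ZMod p)) vu *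
        (qdElt (tS (ZMod p)) vs)⁻¹) * qdElt (tU (ZMod p)) vu)
      have h1 := congrArg qdProj hAv
      simp only [map_mul, map_inv, qdProj_elt] at h1
      rw [word_eq] at h1
      exact ⟨v, by rw [hAv, ← h1]⟩
    have hwr : ∀ r, τ ((α * (β * α * β⁻¹) * α) r) = qdElt (tS (ZMod p)) v * τ r * (qdElt (tS (ZMod p)) v)⁻¹ := by
      intro r
      show τ (α (β (α (β⁻¹ (α r))))) = _
      rw [hα, hβ, hα, hβi, hα, ← hv]
      group
    have hwk : ∀ (n : ℕ) (r : R), τ (((α * (β * α * β⁻¹) * α) ^ n) r) =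
        (qdElt (tS (ZMod p)) v) ^ n * τ r * ((qdElt (tS (ZMod p)) v) ^ n)⁻¹ := by
      intro n
      induction n with
      | zero => intro r; simp
      | succ n ih =>
        intro r
        rw [pow_succ', MulAut.mul_apply, hwr, ih, pow_succ']
        group
    refine tS_pow_ne (F := ZMod p) hp hp2 k (sl2_eq_one_of_fix fun w => ?_)
    have hwV : qdElt (1 : Matrix.SpecialLinearGroup (Fin 2) (ZMod p)) w ∈ V := mem_ker_qdProj.mpr rfl
    obtain ⟨r, hr, hrw⟩ := hTV _ hwV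
    have h1 := hcon (i ⟨r, hr⟩)
    have h2 : τ (((α * (β * α * β⁻¹) * α) ^ p ^ k) (i ⟨r, hr⟩)) = τ (i ⟨r, hr⟩) := by
      have h3 : τ (((α * (β * α * β⁻¹) * α) ^ p ^ k) (i ⟨r, hr⟩) * (i ⟨r, hr⟩)⁻¹) = 1 := h1
      rw [map_mul, map_inv, mul_inv_eq_one] at h3
      exact h3
    rw [hwk, hτ] at h2
    have h4 : σ ((⟨r, hr⟩ : TK) : K) = qdElt 1 w := hrw
    rw [h4] at h2
    obtain ⟨B, u, hBu⟩ := exists_qdElt ((qdElt (tS (ZMod p)) v) ^ p ^ k)
    have h5 := congrArg qdProj hBu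
    rw [map_pow, qdProj_elt, qdProj_elt] at h5
    rw [hBu, qdElt_conj_one] at h2
    rw [h5]
    exact (qdElt_injective h2).2

/-- S5206 -/
theorem free_iff (hp2 : p ≠ 2) (P : Sylow p G) :
    (groupFusionSystem (P : Subgroup G)).IsSectionFree p ↥(qd p) ↔ ¬ Involves ↥(qd p) G :=
  ⟨fun h hinv => not_free_of_involves hp2 P hinv h, fun h => isSectionFree_group P h⟩

end Main

end Cfsg.Agent.H87
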